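import Mathlib
import Cfsg.Agent.Lib.Core.Factor
import Cfsg.Agent.Lib.Core.PFrattini
import Cfsg.Agent.Lib.Cl.TwoSizes
import Cfsg.Agent.Lib.FF.Hcond2
import Cfsg.Agent.Lib.Coprime.FrobCount
import Cfsg.Agent.Lib.ClassSizes.Basic

/-!
Class sizes of `p`-singular elements: basic tools, and the theorem that a group whose `p`-regular elements
centralize Sylow `p`-subgroups has a unique Sylow `p`-subgroup.
-/

set_option autoImplicit false

namespace Cfsg.Agent.Lib.PSingGraph

open Subgroup
open Cfsg.Agent.Lib.ClassSizes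

variable {G : Type*} [Group G] [Finite G]

/-- The size of the conjugacy class. -/
noncomputable abbrev nn (x : G) : ℕ := (centralizer ({x} : Set G)).index

theorem nn_dvd_mul {x y : G} (hc : Commute x y) (hco : (orderOf x).Coprime (orderOf y)) :
    nn x ∣ nn (x * y) ∧ nn y ∣ nn (x * y) := by
  unfold nn
  rw [Cfsg.Agent.Lib.Cl.TwoSizes.centralizer_mul_of_coprime hc hco]
  exact ⟨index_dvd_of_le inf_le_left, index_dvd_of_le inf_le_right⟩

theorem nn_conj (g x : G) : nn (g * x * g⁻¹) = nn x := by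
  unfold nn
  rw [← card_isConj_eq_index, ← card_isConj_eq_index]
  apply Nat.card_congr
  refine Equiv.subtypeEquivRight fun y => ?_
  have h : IsConj (g * x * g⁻¹) x := by
    rw [isConj_comm]
    exact isConj_iff.2 ⟨g, rfl⟩
  exact ⟨fun h1 => h.symm.trans h1, fun h1 => h.trans h1⟩

theorem nn_pow_dvd (x : G) (k : ℕ) : nn (x ^ k) ∣ nn x := by
  apply index_dvd_of_le
  intro y hy
  rw [mem_centralizer_singleton_iff] at hy ⊢
  exact ((Commute.pow_right hy k : Commute y (x ^ k))).eq

/-- A subgroup of index prime to `q` contains a Sylow `q`-subgroup. -/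
theorem exists_sylow_le (q : ℕ) [Fact q.Prime] (H : Subgroup G) (h : ¬ q ∣ H.index) :
    ∃ Q : Sylow q G, (Q : Subgroup G) ≤ H := by
  obtain ⟨Q₀⟩ : Nonempty (Sylow q H) := inferInstance
  have h1 : Nat.card Q₀ = q ^ (Nat.card H).factorization q := Sylow.card_eq_multiplicity Q₀
  have hG : Nat.card G = Nat.card H * H.index := (Subgroup.card_mul_index H).symm
  have hH0 : Nat.card H ≠ 0 := Nat.card_pos.ne'
  have hi0 : H.index ≠ 0 := Subgroup.index_ne_zero_of_finite
  have h2 : (Nat.card G).factorization q = (Nat.card H).factorization q := by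
    rw [hG, Nat.factorization_mul hH0 hi0, Finsupp.add_apply, Nat.factorization_eq_zero_of_not_dvd h, add_zero]
  let R : Subgroup G := (Q₀ : Subgroup H).map H.subtype
  have h3 : Nat.card R = Nat.card Q₀ := Subgroup.card_map_of_injective H.subtype_injective
  refine ⟨Sylow.ofCard R (by rw [h3, h1, h2]), ?_⟩
  exact Subgroup.map_subtype_le _

/-- The class size of `x` is prime to `q` if a Sylow `q`-subgroup centralizes `x`. -/
theorem not_dvd_of_sylow_le (q : ℕ) [Fact q.Prime] (x : G) (Q : Sylow q G) (h : ∀ y ∈ (Q : Subgroup G), Commute y x) :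
    ¬ q ∣ nn x := by
  intro hq
  have h1 : (Q : Subgroup G) ≤ centralizer ({x} : Set G) := by
    intro y hy
    rw [mem_centralizer_singleton_iff]
    exact (h y hy).eq
  have h2 : nn x ∣ (Q : Subgroup G).index := index_dvd_of_le h1
  exact Q.not_dvd_index (hq.trans h2)

/-- Conjugating an element of a Sylow subgroup into another one. -/
theorem exists_conj_mem {p : ℕ} [Fact p.Prime] (Q P : Sylow p G) {c : G} (hc : c ∈ Q) : ∃ g : G, g * c * g⁻¹ ∈ P := by
  obtain ⟨g, hg⟩ := MulAction.exists_smul_eq G Q P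
  refine ⟨g, ?_⟩
  rw [← hg, mem_sylow_smul_iff]
  simpa [mul_assoc] using hc

/-- Commuting passes to all conjugates when class sizes are coprime. -/
theorem commute_conj_of_coprime {x z : G} (hc : Commute x z) (hco : (nn x).Coprime (nn z)) (g : G) :
    Commute x (g * z * g⁻¹) := by
  obtain ⟨u, hu, v, hv, rfl⟩ := Cfsg.Agent.Lib.Core.exists_mul_of_coprime_index _ _ hco g
  rw [mem_centralizer_singleton_iff] at hu hv
  have h1 : u * v * z * (u * v)⁻¹ = u * z * u⁻¹ := by
    calc u * v * z * (u * v)⁻¹ = u * (v * z) * v⁻¹ * u⁻¹ := by group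
      _ = u * (z * v) * v⁻¹ * u⁻¹ := by rw [hv]
      _ = u * z * u⁻¹ := by group
  rw [h1]
  show x * (u * z * u⁻¹) = (u * z * u⁻¹) * x
  calc x * (u * z * u⁻¹) = (x * u) * z * u⁻¹ := by group
    _ = (u * x) * z * u⁻¹ := by rw [show x * u = u * x from hu.symm]
    _ = u * (x * z) * u⁻¹ := by group
    _ = u * (z * x) * u⁻¹ := by rw [hc.eq]
    _ = u * z * (x * u⁻¹) := by group
    _ = u * z * (u⁻¹ * x) := by
        congr 1
        have h2 : x * u = u * x := hu.symm
        calc x * u⁻¹ = u⁻¹ * (u * x) * u⁻¹ := by group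
          _ = u⁻¹ * (x * u) * u⁻¹ := by rw [h2]
          _ = u⁻¹ * x := by group
    _ = (u * z * u⁻¹) * x := by group

/-- A `p`-element commutes with an element centralizing a Sylow `p`-subgroup, when class sizes are coprime. -/
theorem commute_of_coprime {p : ℕ} [Fact p.Prime] {x z : G} {k : ℕ} (hx : orderOf x = p ^ k) (hz : ¬ p ∣ nn z)
    (hco : (nn x).Coprime (nn z)) : Commute x z := by
  obtain ⟨P, hP⟩ := exists_sylow_le p _ hz
  obtain ⟨Q, hQ⟩ := exists_sylow_mem_of_orderOf (p := p) ⟨k, hx⟩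
  obtain ⟨g, hg⟩ := exists_conj_mem Q P hQ
  have h1 : Commute (g * x * g⁻¹) z := by
    have h2 := hP hg
    rw [mem_centralizer_singleton_iff] at h2
    exact h2
  have h3 : (nn z).Coprime (nn (g * x * g⁻¹)) := by
    rw [nn_conj]
    exact hco.symm
  have h4 := commute_conj_of_coprime h1.symm h3 g⁻¹
  have h5 : g⁻¹ * (g * x * g⁻¹) * g⁻¹⁻¹ = x := by group
  rw [h5] at h4
  exact h4.symm

/-- The `p`-part and the `p'`-part of an element. -/
theorem exists_part (p : ℕ) [hp : Fact p.Prime] (x : G) :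
    ∃ (u v : G) (k i j : ℕ), x = u * v ∧ Commute u v ∧ orderOf u = p ^ k ∧ ¬ p ∣ orderOf v ∧ u = x ^ i ∧ v = x ^ j := by
  have ho : orderOf x ≠ 0 := (orderOf_pos x).ne'
  obtain ⟨e, m, hm, hem⟩ := Nat.exists_eq_pow_mul_and_not_dvd ho p hp.out.ne_one
  have hco : (p ^ e).Coprime m := Nat.Coprime.pow_left e ((Nat.Prime.coprime_iff_not_dvd hp.out).2 hm)
  obtain ⟨i, hi1, hi2⟩ := Nat.chineseRemainder hco 1 0
  obtain ⟨j, hj1, hj2⟩ := Nat.chineseRemainder hco 0 1
  have hij : (i + j) % orderOf x = 1 % orderOf x := by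
    have h1 : i + j ≡ 1 [MOD p ^ e] := by simpa using hi1.add hj1
    have h2 : i + j ≡ 1 [MOD m] := by simpa using hi2.add hj2
    rw [hem]
    exact (Nat.modEq_and_modEq_iff_modEq_mul hco).1 ⟨h1, h2⟩
  have hx : x ^ i * x ^ j = x := by
    rw [← pow_add, ← pow_mod_orderOf, hij, pow_mod_orderOf, pow_one]
  have hui : orderOf (x ^ i) ∣ p ^ e := by
    apply orderOf_dvd_of_pow_eq_one
    obtain ⟨w, hw⟩ := (Nat.modEq_zero_iff_dvd).mp hi2
    rw [hw, ← pow_mul, show m * w * p ^ e = orderOf x * w by rw [hem]; ring, pow_mul, pow_orderOf_eq_one, one_pow]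
  have hvj : orderOf (x ^ j) ∣ m := by
    apply orderOf_dvd_of_pow_eq_one
    obtain ⟨w, hw⟩ := (Nat.modEq_zero_iff_dvd).mp hj1
    rw [hw, ← pow_mul, show p ^ e * w * m = orderOf x * w by rw [hem]; ring, pow_mul, pow_orderOf_eq_one, one_pow]
  obtain ⟨k, -, hk⟩ := (Nat.dvd_prime_pow hp.out).1 hui
  exact ⟨x ^ i, x ^ j, k, i, j, hx.symm, (Commute.refl x).pow_pow i j, hk, fun h => hm (h.trans hvj), rfl, rfl⟩

section Regular

variable {N : Type*} [Group N] [Finite N]

/-- Counting `p'`-elements: if every `p'`-element centralizes a Sylow `p`-subgroup, the Sylow `p`-subgroup is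
unique. -/
theorem sylow_unique_of_regular (p : ℕ) [hp : Fact p.Prime]
    (h : ∀ x : N, ¬ p ∣ orderOf x → ∃ Q : Sylow p N, ∀ y ∈ (Q : Subgroup N), Commute x y) (Q Q' : Sylow p N) :
    Q = Q' := by
  classical
  haveI := Fintype.ofFinite N
  haveI := Fintype.ofFinite (Sylow p N)
  have hN0 : Nat.card N ≠ 0 := Nat.card_pos.ne'
  obtain ⟨a, m, hm, ham⟩ := Nat.exists_eq_pow_mul_and_not_dvd hN0 p hp.out.ne_one
  have hm0 : m ≠ 0 := fun h0 => hm (h0 ▸ dvd_zero p)
  have ha : (Nat.card N).factorization p = a := by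
    rw [ham, Nat.factorization_mul (pow_ne_zero _ hp.out.ne_zero) hm0, Finsupp.add_apply,
      Nat.Prime.factorization_pow hp.out, Nat.factorization_eq_zero_of_not_dvd hm]
    simp
  have hcardQ : ∀ P : Sylow p N, Nat.card P = p ^ a := fun P => by
    rw [Sylow.card_eq_multiplicity P, ha]
  let X : Finset N := Finset.univ.filter fun x => x ^ m = 1
  let W : Sylow p N → Finset N := fun P => Finset.univ.filter fun x => x ^ m = 1 ∧ ∀ y ∈ (P : Subgroup N), Commute x y
  -- Frobenius
  have hX : m ≤ X.card := by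
    have h1 := Cfsg.Agent.Lib.Coprime.frobenius_count (G := N) m ⟨p ^ a, by rw [ham, mul_comm]⟩
    have h2 : Nat.card {x : N // x ^ m = 1} = X.card := by
      rw [Nat.card_eq_fintype_card, Fintype.card_subtype]
    rw [h2] at h1
    refine Nat.le_of_dvd (Finset.card_pos.2 ⟨1, ?_⟩) h1
    simp [X]
  -- the sets `W`
  have h1W : ∀ P, (1 : N) ∈ W P := fun P => by
    simp [W]
  have hn : Nat.card (Sylow p N) = Fintype.card (Sylow p N) := Nat.card_eq_fintype_card
  set np := Fintype.card (Sylow p N) with hnp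
  have hnp0 : 0 < np := Fintype.card_pos
  have hWbound : ∀ P, (W P).card * np ≤ m := by
    intro P
    have hcomm : ∀ x ∈ W P, ∀ y ∈ (P : Subgroup N), Commute x y := fun x hx => (Finset.mem_filter.1 hx).2.2
    have hpow : ∀ x ∈ W P, x ^ m = 1 := fun x hx => (Finset.mem_filter.1 hx).2.1
    have hmem : ∀ x ∈ W P, x ∈ normalizer ((P : Subgroup N) : Set N) := by
      intro x hx
      rw [mem_normalizer_iff]
      intro y
      constructor
      · intro hy
        have h3 := (hcomm x hx y hy).eq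
        rw [h3, mul_inv_cancel_right]
        exact hy
      · intro hy
        have h3 := (hcomm x hx _ hy).eq
        have h4 : x * y * x⁻¹ = y := by
          have h5 : x * (x * y * x⁻¹) * x⁻¹ = x * y * x⁻¹ := by
            rw [h3, mul_inv_cancel_right]
          have h6 : x⁻¹ * (x * (x * y * x⁻¹) * x⁻¹) * x = x⁻¹ * (x * y * x⁻¹) * x := by rw [h5]
          have h7 : x⁻¹ * (x * (x * y * x⁻¹) * x⁻¹) * x = x * y * x⁻¹ := by group
          have h8 : x⁻¹ * (x * y * x⁻¹) * x = y := by group
          rw [h7, h8] at h6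
          exact h6
        rwa [h4] at hy
    let f : {x // x ∈ W P} × (P : Subgroup N) → normalizer ((P : Subgroup N) : Set N) := fun z =>
      ⟨z.1.1 * z.2.1, mul_mem (hmem _ z.1.2) (le_normalizer z.2.2)⟩
    have hf : Function.Injective f := by
      rintro ⟨⟨x, hx⟩, ⟨π, hπ⟩⟩ ⟨⟨x', hx'⟩, ⟨π', hπ'⟩⟩ hxy
      have hxy' : x * π = x' * π' := congrArg Subtype.val hxy
      set z := x'⁻¹ * x with hz
      have hz1 : z = π' * π⁻¹ := by
        rw [hz]
        calc x'⁻¹ * x = x'⁻¹ * (x * π) * π⁻¹ := by group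
          _ = x'⁻¹ * (x' * π') * π⁻¹ := by rw [hxy']
          _ = π' * π⁻¹ := by group
      have hzP : z ∈ (P : Subgroup N) := by
        rw [hz1]
        exact mul_mem hπ' (inv_mem hπ)
      have hxz : x = x' * z := by
        rw [hz]
        group
      have hc : Commute x' x := by
        rw [hxz]
        exact (Commute.refl x').mul_right (hcomm x' hx' z hzP)
      have hzm : z ^ m = 1 := by
        rw [hz, hc.inv_left.mul_pow, inv_pow, hpow x hx, hpow x' hx', inv_one, one_mul]
      have hz2 : z = 1 := by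
        obtain ⟨l, hl⟩ := exists_orderOf_eq_prime_pow_of_mem P.isPGroup' hzP
        have h5 : orderOf z ∣ m := orderOf_dvd_of_pow_eq_one hzm
        rw [hl] at h5
        have hl0 : l = 0 := by
          by_contra hl0
          exact hm ((dvd_pow_self p hl0).trans h5)
        rw [hl0, pow_zero] at hl
        exact orderOf_eq_one_iff.1 hl
      have hxx : x = x' := by
        rw [hxz, hz2, mul_one]
      subst hxx
      have hππ : π = π' := mul_left_cancel hxy'
      subst hππ
      rfl
    have h2 := Nat.card_le_card_of_injective f hf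
    rw [Nat.card_prod, hcardQ P] at h2
    have h3 : Nat.card {x // x ∈ W P} = (W P).card := by
      rw [Nat.card_eq_fintype_card, Fintype.card_coe]
    rw [h3] at h2
    have h4 : Nat.card (normalizer ((P : Subgroup N) : Set N)) * np = Nat.card N := by
      rw [← hn, P.card_eq_index_normalizer]
      exact Subgroup.card_mul_index _
    have h5 : p ^ a * ((W P).card * np) ≤ p ^ a * m := by
      calc p ^ a * ((W P).card * np) = (W P).card * p ^ a * np := by ring
        _ ≤ Nat.card (normalizer ((P : Subgroup N) : Set N)) * np := Nat.mul_le_mul_right _ h2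
        _ = p ^ a * m := by rw [h4, ham]
    exact Nat.le_of_mul_le_mul_left h5 (pow_pos hp.out.pos a)
  have hsum : ∑ P, (W P).card ≤ m := by
    have h2 : ∀ P ∈ (Finset.univ : Finset (Sylow p N)), (W P).card ≤ m / np := fun P _ =>
      (Nat.le_div_iff_mul_le hnp0).2 (hWbound P)
    have h3 := Finset.sum_le_card_nsmul _ _ _ h2
    rw [Finset.card_univ, smul_eq_mul] at h3
    exact h3.trans (Nat.mul_div_le m np)
  have hcover : (X.erase 1).card ≤ ∑ P, ((W P).erase 1).card := by
    have h2 : X.erase 1 ⊆ Finset.univ.biUnion fun P => (W P).erase 1 := by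
      intro x hx
      rw [Finset.mem_erase] at hx
      have hxm : x ^ m = 1 := (Finset.mem_filter.1 hx.2).2
      have hxp : ¬ p ∣ orderOf x := fun h3 => hm (h3.trans (orderOf_dvd_of_pow_eq_one hxm))
      obtain ⟨P, hP⟩ := h x hxp
      rw [Finset.mem_biUnion]
      refine ⟨P, Finset.mem_univ _, Finset.mem_erase.2 ⟨hx.1, Finset.mem_filter.2 ⟨Finset.mem_univ _, hxm, hP⟩⟩⟩
    exact (Finset.card_le_card h2).trans Finset.card_biUnion_le
  have herase : ∑ P, ((W P).erase 1).card + np = ∑ P, (W P).card := by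
    have h2 : ∀ P, ((W P).erase 1).card + 1 = (W P).card := fun P => Finset.card_erase_add_one (h1W P)
    calc ∑ P, ((W P).erase 1).card + np = ∑ P, (((W P).erase 1).card + 1) := by
          rw [Finset.sum_add_distrib, Finset.sum_const, Finset.card_univ, smul_eq_mul, mul_one]
      _ = ∑ P, (W P).card := Finset.sum_congr rfl fun P _ => h2 P
  have hX1 : (1 : N) ∈ X := by
    simp [X]
  have hXe : (X.erase 1).card + 1 = X.card := Finset.card_erase_add_one hX1
  have hnp1 : np ≤ 1 := by omega
  have hsub : Subsingleton (Sylow p N) := Fintype.card_le_one_iff_subsingleton.1 hnp1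
  exact Subsingleton.elim Q Q'

end Regular

end Cfsg.Agent.Lib.PSingGraph
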