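import Mathlib
import Cfsg.Agent.Lib.PSingGraph.Basic

/-!
The separation argument for the prime graph on class sizes of `p`-singular elements.
-/

set_option autoImplicit false

namespace Cfsg.Agent.Lib.PSingGraph

open Subgroup
open Cfsg.Agent.Lib.ClassSizes
open scoped commutatorElement

/-- Two sets of primes separated by the class sizes of `p`-singular elements. -/
def Sep (p : ℕ) (G : Type*) [Group G] (A B : ℕ → Prop) : Prop :=
  ∀ w : G, p ∣ orderOf w → ∀ t u : ℕ, t.Prime → u.Prime → t ∣ nn w → u ∣ nn w → A t → B u → False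

theorem Sep.symm {p : ℕ} {G : Type*} [Group G] {A B : ℕ → Prop} (S : Sep p G A B) : Sep p G B A :=
  fun w hw t u ht hu h1 h2 h3 h4 => S w hw u t hu ht h2 h1 h4 h3

/-- A set of primes containing the neighbours of `r`. -/
def Cls (p : ℕ) (G : Type*) [Group G] (A : ℕ → Prop) (r : ℕ) : Prop :=
  A r ∧ ∀ w : G, p ∣ orderOf w → r ∣ nn w → ∀ t : ℕ, t.Prime → t ∣ nn w → A t

variable {G : Type*} [Group G] [Finite G] {p : ℕ} [hp : Fact p.Prime]

lemma p_dvd_orderOf_of_ne_one {u : G} {k : ℕ} (hk : orderOf u = p ^ k) (hu : u ≠ 1) : p ∣ orderOf u := by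
  rw [hk]
  have hk0 : k ≠ 0 := by
    rintro rfl
    rw [pow_zero] at hk
    exact hu (orderOf_eq_one_iff.1 hk)
  exact dvd_pow_self p hk0

lemma nn_ne_one (hZ : ¬ p ∣ Nat.card (center G)) {u : G} {k : ℕ} (hk : orderOf u = p ^ k) (hu : u ≠ 1) : nn u ≠ 1 := by
  intro h
  have h1 : centralizer ({u} : Set G) = ⊤ := Subgroup.index_eq_one.1 h
  have h2 : u ∈ center G := by
    rw [mem_center_iff]
    intro g
    have h3 : g ∈ centralizer ({u} : Set G) := by
      rw [h1]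
      trivial
    rw [mem_centralizer_singleton_iff] at h3
    exact h3
  have h3 : orderOf (⟨u, h2⟩ : center G) = orderOf u := Subgroup.orderOf_mk u h2
  apply hZ
  have h4 := orderOf_dvd_natCard (⟨u, h2⟩ : center G)
  rw [h3] at h4
  exact (p_dvd_orderOf_of_ne_one hk hu).trans h4

lemma nn_eq_of_central {b e f : G} (hbef : b = e * f) (hf : nn f = 1) {i : ℕ} (he : e = b ^ i) : nn e = nn b := by
  have h1 : centralizer ({f} : Set G) = ⊤ := Subgroup.index_eq_one.1 hf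
  have hfc : ∀ x : G, x * f = f * x := by
    intro x
    have h3 : x ∈ centralizer ({f} : Set G) := by
      rw [h1]
      trivial
    rw [mem_centralizer_singleton_iff] at h3
    exact h3
  unfold nn
  congr 1
  ext x
  rw [mem_centralizer_singleton_iff, mem_centralizer_singleton_iff]
  constructor
  · intro h
    rw [hbef]
    calc x * (e * f) = (x * e) * f := by group
      _ = (e * x) * f := by rw [h]
      _ = e * (x * f) := by group
      _ = e * (f * x) := by rw [hfc]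
      _ = e * f * x := by group
  · intro h
    rw [he]
    exact (Commute.pow_right (show Commute x b from h) i).eq

theorem central_part (hZ : ¬ p ∣ Nat.card (center G)) {A B : ℕ → Prop} {r s : ℕ} (S : Sep p G A B) (hA : Cls p G A r)
    (hB : Cls p G B s) {a b : G} (ha : p ∣ orderOf a) (hra : r ∣ nn a) (hb : p ∣ orderOf b) (hsb : s ∣ nn b)
    (hpb : ¬ p ∣ nn b) {f : G} {j : ℕ} (hfj : f = b ^ j) (hf : ¬ p ∣ orderOf f) : nn f = 1 := by
  by_contra hne
  obtain ⟨c, a', k, i, _, hac, -, hck, ha', hci, -⟩ := exists_part p a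
  have hc1 : c ≠ 1 := by
    rintro rfl
    rw [one_mul] at hac
    rw [hac] at ha
    exact ha' ha
  obtain ⟨P, hP⟩ := exists_sylow_le p _ hpb
  obtain ⟨Q, hQ⟩ := exists_sylow_mem_of_orderOf (p := p) ⟨k, hck⟩
  obtain ⟨g, hg⟩ := exists_conj_mem Q P hQ
  have hc₁b : Commute (g * c * g⁻¹) b := by
    have h1 := hP hg
    rw [mem_centralizer_singleton_iff] at h1
    exact h1
  have hc₁f : Commute (g * c * g⁻¹) f := by
    rw [hfj]
    exact hc₁b.pow_right j
  have hc₁o : orderOf (g * c * g⁻¹) = p ^ k := by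
    rw [← hck]
    exact MulEquiv.orderOf_eq (MulAut.conj g) c
  have hco : (orderOf (g * c * g⁻¹)).Coprime (orderOf f) := by
    rw [hc₁o]
    exact Nat.Coprime.pow_left k ((Nat.Prime.coprime_iff_not_dvd hp.out).2 hf)
  obtain ⟨h1, h2⟩ := nn_dvd_mul hc₁f hco
  have hw : p ∣ orderOf (g * c * g⁻¹ * f) := by
    rw [hc₁f.orderOf_mul_eq_mul_orderOf_of_coprime hco]
    exact Dvd.dvd.mul_right (p_dvd_orderOf_of_ne_one hc₁o (by
      intro h
      rw [h, orderOf_one] at hc₁o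
      apply hc1
      rw [← orderOf_eq_one_iff, hck, ← hc₁o])) _
  obtain ⟨t, ht, htd⟩ := Nat.exists_prime_and_dvd (nn_ne_one hZ hck hc1)
  obtain ⟨u, hu, hud⟩ := Nat.exists_prime_and_dvd hne
  refine S _ hw t u ht hu ?_ (hud.trans h2) ?_ ?_
  · rw [← nn_conj g c] at htd
    exact htd.trans h1
  · refine hA.2 a ha hra t ht (htd.trans ?_)
    rw [hci]
    exact nn_pow_dvd a i
  · refine hB.2 b hb hsb u hu (hud.trans ?_)
    rw [hfj]
    exact nn_pow_dvd b j

/-- The main contradiction. -/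
theorem core (hZ : ¬ p ∣ Nat.card (center G)) {A B : ℕ → Prop} {r s : ℕ} (S : Sep p G A B) (hA : Cls p G A r)
    (hB : Cls p G B s) (hsp : s.Prime) {a b : G} (ha : p ∣ orderOf a) (hra : r ∣ nn a) (hb : p ∣ orderOf b)
    (hsb : s ∣ nn b) (hpb : ¬ p ∣ nn b) : False := by
  classical
  obtain ⟨e, f, l, i₁, j₁, hbef, hcomb, hel, hf, hei, hfj⟩ := exists_part p b
  have hf1 : nn f = 1 := central_part hZ S hA hB ha hra hb hsb hpb hfj hf
  have hne : nn e = nn b := nn_eq_of_central hbef hf1 hei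
  have he1 : e ≠ 1 := by
    rintro rfl
    rw [one_mul] at hbef
    rw [hbef] at hb
    exact hf hb
  have hsinge : p ∣ orderOf e := p_dvd_orderOf_of_ne_one hel he1
  have hBe : ∀ t : ℕ, t.Prime → t ∣ nn e → B t := fun t ht h => hB.2 b hb hsb t ht (hne ▸ h)
  have hse : s ∣ nn e := hne ▸ hsb
  have hpe : ¬ p ∣ nn e := hne ▸ hpb
  obtain ⟨c, a', k, i, j, hac, hcomm, hck, ha', hci, haj⟩ := exists_part p a
  have hc1 : c ≠ 1 := by
    rintro rfl
    rw [one_mul] at hac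
    rw [hac] at ha
    exact ha' ha
  have hsingc : p ∣ orderOf c := p_dvd_orderOf_of_ne_one hck hc1
  have hca : nn c ∣ nn a := by
    rw [hci]
    exact nn_pow_dvd a i
  have hAc : ∀ t : ℕ, t.Prime → t ∣ nn c → A t := fun t ht h => hA.2 a ha hra t ht (h.trans hca)
  have hcn := nn_ne_one hZ hck hc1
  have hS1 : ∀ t : ℕ, t.Prime → t ∣ nn e → A t → False := fun t ht h hAt =>
    S e hsinge t t ht ht h h hAt (hBe t ht h)
  by_cases hsub : ∃ r₁ : ℕ, r₁.Prime ∧ r₁ ≠ p ∧ r₁ ∣ nn c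
  · obtain ⟨r₁, hr₁, hr₁p, hr₁c⟩ := hsub
    haveI : Fact r₁.Prime := ⟨hr₁⟩
    have hr₁e : ¬ r₁ ∣ nn e := fun h => hS1 r₁ hr₁ h (hAc r₁ hr₁ hr₁c)
    obtain ⟨R, hR⟩ := exists_sylow_le r₁ _ hr₁e
    have hmoved : ∃ ρ ∈ (R : Subgroup G), ¬ Commute ρ c := by
      by_contra hcon
      push Not at hcon
      exact not_dvd_of_sylow_le r₁ c R hcon hr₁c
    obtain ⟨ρ, hρR, hρc⟩ := hmoved
    obtain ⟨m, hρm⟩ := exists_orderOf_eq_prime_pow_of_mem R.isPGroup' hρR
    have hρe : Commute e ρ := by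
      have h1 := hR hρR
      rw [mem_centralizer_singleton_iff] at h1
      exact (show Commute ρ e from h1).symm
    have hco : (orderOf e).Coprime (orderOf ρ) := by
      rw [hel, hρm]
      exact Nat.coprime_pow_primes _ _ hp.out hr₁ (Ne.symm hr₁p)
    obtain ⟨h1, h2⟩ := nn_dvd_mul hρe hco
    have hw : p ∣ orderOf (e * ρ) := by
      rw [hρe.orderOf_mul_eq_mul_orderOf_of_coprime hco]
      exact Dvd.dvd.mul_right hsinge _
    have hρA : ∀ t : ℕ, t.Prime → t ∣ nn ρ → ¬ A t := fun t ht h hAt =>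
      S (e * ρ) hw t s ht hsp (h.trans h2) (hse.trans h1) hAt hB.1
    have hcoρ : (nn c).Coprime (nn ρ) := Nat.coprime_of_dvd fun t ht h3 h4 => hρA t ht h4 (hAc t ht h3)
    have hpρ : p ∣ nn ρ := by
      by_contra hnp
      exact hρc (commute_of_coprime hck hnp hcoρ).symm
    have hnotAp : ¬ A p := hρA p hp.out hpρ
    have hpa : ¬ p ∣ nn a := fun h => hnotAp (hA.2 a ha hra p hp.out h)
    have ha'1 : nn a' = 1 := central_part hZ S.symm hB hA hb hsb ha hra hpa haj ha'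
    have hac_eq : nn c = nn a := nn_eq_of_central hac ha'1 hci
    have hrc : r ∣ nn c := hac_eq ▸ hra
    have hs_c : ¬ s ∣ nn c := fun h => S c hsingc s s hsp hsp h h (hAc s hsp h) hB.1
    haveI : Fact s.Prime := ⟨hsp⟩
    obtain ⟨T, hT⟩ := exists_sylow_le s _ hs_c
    have hmoved2 : ∃ y ∈ (T : Subgroup G), ¬ Commute y e := by
      by_contra hcon
      push Not at hcon
      exact not_dvd_of_sylow_le s e T hcon hse
    obtain ⟨y, hyT, hye⟩ := hmoved2
    obtain ⟨m', hym⟩ := exists_orderOf_eq_prime_pow_of_mem T.isPGroup' hyT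
    have hsp_ne : s ≠ p := fun h => hpe (h ▸ hse)
    have hyc : Commute c y := by
      have h3 := hT hyT
      rw [mem_centralizer_singleton_iff] at h3
      exact (show Commute y c from h3).symm
    have hco2 : (orderOf c).Coprime (orderOf y) := by
      rw [hck, hym]
      exact Nat.coprime_pow_primes _ _ hp.out hsp (Ne.symm hsp_ne)
    obtain ⟨h3, h4⟩ := nn_dvd_mul hyc hco2
    have hw2 : p ∣ orderOf (c * y) := by
      rw [hyc.orderOf_mul_eq_mul_orderOf_of_coprime hco2]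
      exact Dvd.dvd.mul_right hsingc _
    have hAw : ∀ t : ℕ, t.Prime → t ∣ nn (c * y) → A t := hA.2 (c * y) hw2 (hrc.trans h3)
    have hcoy : (nn e).Coprime (nn y) := Nat.coprime_of_dvd fun t ht h5 h6 =>
      hS1 t ht h5 (hAw t ht (h6.trans h4))
    have hpy : p ∣ nn y := by
      by_contra hnp
      exact hye (commute_of_coprime hel hnp hcoy).symm
    exact hnotAp (hAw p hp.out (hpy.trans h4))
  -- all primes of the class size of `c` equal `p`
  have hprimes : ∀ t : ℕ, t.Prime → t ∣ nn c → t = p := by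
    intro t ht h
    by_contra hne'
    exact hsub ⟨t, ht, hne', h⟩
  obtain ⟨t₀, ht₀, ht₀c⟩ := Nat.exists_prime_and_dvd hcn
  have hpc : p ∣ nn c := hprimes t₀ ht₀ ht₀c ▸ ht₀c
  have hAp : A p := hAc p hp.out hpc
  obtain ⟨P, hP⟩ := exists_sylow_le p _ hpe
  obtain ⟨Q, hQ⟩ := exists_sylow_mem_of_orderOf (p := p) ⟨k, hck⟩
  obtain ⟨g, hg⟩ := exists_conj_mem Q P hQ
  set c₁ := g * c * g⁻¹ with hc₁
  have hnc₁ : nn c₁ = nn c := nn_conj g c
  have hc₁o : orderOf c₁ = p ^ k := by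
    rw [← hck]
    exact MulEquiv.orderOf_eq (MulAut.conj g) c
  have hc₁prime : ∀ t : ℕ, t.Prime → t ∣ nn c₁ → t = p := fun t ht h => hprimes t ht (hnc₁ ▸ h)
  have hτ₀ : ∃ τ₀ ∈ (P : Subgroup G), ¬ Commute τ₀ c₁ := by
    by_contra hcon
    push Not at hcon
    exact not_dvd_of_sylow_le p c₁ P hcon (hnc₁ ▸ hpc)
  obtain ⟨τ₀, hτ₀P, hτ₀c⟩ := hτ₀
  have hPe : ∀ π ∈ (P : Subgroup G), Commute π e := by
    intro π hπ
    have h1 := hP hπ
    rw [mem_centralizer_singleton_iff] at h1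
    exact h1
  have hstep : ∀ τ ∈ (P : Subgroup G), ¬ Commute τ c₁ → ∀ h : G, Commute τ (h * e * h⁻¹) := by
    intro τ hτ hτc h
    have hτ1 : τ ≠ 1 := by
      rintro rfl
      exact hτc (Commute.one_left _)
    obtain ⟨l₁, hl₁⟩ := exists_orderOf_eq_prime_pow_of_mem P.isPGroup' hτ
    have hsτ : p ∣ orderOf τ := p_dvd_orderOf_of_ne_one hl₁ hτ1
    have hnB : ∀ t : ℕ, t.Prime → t ∣ nn τ → ¬ B t := by
      intro t ht htτ hBt
      by_cases hpτ : p ∣ nn τ
      · exact S τ hsτ p t hp.out ht hpτ htτ hAp hBt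
      · have hco : (nn c₁).Coprime (nn τ) := Nat.coprime_of_dvd fun u hu h1 h2 => by
          have h3 := hc₁prime u hu h1
          subst h3
          exact hpτ h2
        exact hτc (commute_of_coprime hc₁o hpτ hco).symm
    have hcoe : (nn τ).Coprime (nn e) := Nat.coprime_of_dvd fun t ht h1 h2 => hnB t ht h1 (hBe t ht h2)
    exact commute_conj_of_coprime (hPe τ hτ) hcoe h
  have hall : ∀ π ∈ (P : Subgroup G), ∀ h : G, Commute π (h * e * h⁻¹) := by
    intro π hπ h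
    by_cases hπc : Commute π c₁
    · have h1 : ¬ Commute (τ₀ * π) c₁ := fun h2 => hτ₀c (by
        have h3 := h2.mul_left hπc.inv_left
        simpa using h3)
      have h3 := hstep (τ₀ * π) (mul_mem hτ₀P hπ) h1 h
      have h4 := hstep τ₀ hτ₀P hτ₀c h
      have h5 := h4.inv_left.mul_left h3
      simpa using h5
    · exact hstep π hπ hπc h
  have hSyl : ∀ Q' : Sylow p G, ∀ x ∈ (Q' : Subgroup G), Commute x e := by
    intro Q' x hx
    obtain ⟨h, hh⟩ := MulAction.exists_smul_eq G P Q'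
    have h1 : h⁻¹ * x * h ∈ (P : Subgroup G) := by
      rw [← hh] at hx
      exact mem_sylow_smul_iff.1 hx
    have h2 := (hall _ h1 h⁻¹).eq
    have h4 : h⁻¹ * (x * e) * h = h⁻¹ * (e * x) * h := by
      calc h⁻¹ * (x * e) * h = (h⁻¹ * x * h) * (h⁻¹ * e * h⁻¹⁻¹) := by group
        _ = (h⁻¹ * e * h⁻¹⁻¹) * (h⁻¹ * x * h) := h2
        _ = h⁻¹ * (e * x) * h := by group
    have h5 : x * e = e * x := by
      simpa using h4
    exact h5
  have hreg : ∀ f₁ : G, Commute e f₁ → ¬ p ∣ orderOf f₁ → ¬ p ∣ nn f₁ := by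
    intro f₁ hc hf₁ hpf
    have hco : (orderOf e).Coprime (orderOf f₁) := by
      rw [hel]
      exact Nat.Coprime.pow_left _ ((Nat.Prime.coprime_iff_not_dvd hp.out).2 hf₁)
    obtain ⟨h1, h2⟩ := nn_dvd_mul hc hco
    have hw : p ∣ orderOf (e * f₁) := by
      rw [hc.orderOf_mul_eq_mul_orderOf_of_coprime hco]
      exact Dvd.dvd.mul_right hsinge _
    exact S (e * f₁) hw p s hp.out hsp (hpf.trans h2) (hse.trans h1) hAp hB.1
  have hSylC : ∀ Q' : Sylow p G, (Q' : Subgroup G) ≤ centralizer ({e} : Set G) := fun Q' x hx => by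
    rw [mem_centralizer_singleton_iff]
    exact hSyl Q' x hx
  have huniq : ∀ Q₁ Q₂ : Sylow p G, Q₁ = Q₂ := by
    have hT : ∀ Q₁ Q₂ : Sylow p (centralizer ({e} : Set G)), Q₁ = Q₂ := by
      apply sylow_unique_of_regular p
      intro x hx
      have hx' : ¬ p ∣ orderOf (x : G) := by
        rwa [Subgroup.orderOf_coe]
      have hex : Commute e (x : G) := by
        have h1 := x.2
        rw [mem_centralizer_singleton_iff] at h1
        exact (show Commute (x : G) e from h1).symm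
      obtain ⟨Q', hQ'⟩ := exists_sylow_le p _ (hreg _ hex hx')
      refine ⟨Q'.subtype (hSylC Q'), fun y hy => ?_⟩
      have hy' : (y : G) ∈ (Q' : Subgroup G) := by
        rw [Sylow.coe_subtype] at hy
        exact Subgroup.mem_subgroupOf.1 hy
      have h2 := hQ' hy'
      rw [mem_centralizer_singleton_iff] at h2
      apply Subtype.ext
      exact (show Commute (y : G) (x : G) from h2).symm
    have hle : ∀ Q₁ Q₂ : Sylow p G, (Q₁ : Subgroup G) ≤ Q₂ := by
      intro Q₁ Q₂ x hx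
      have h1 := hT (Q₁.subtype (hSylC Q₁)) (Q₂.subtype (hSylC Q₂))
      have h2 : (⟨x, hSylC Q₁ hx⟩ : centralizer ({e} : Set G)) ∈ ((Q₁.subtype (hSylC Q₁) : Sylow p _) : Subgroup _) := by
        rw [Sylow.coe_subtype]
        exact Subgroup.mem_subgroupOf.2 hx
      rw [h1, Sylow.coe_subtype] at h2
      exact Subgroup.mem_subgroupOf.1 h2
    intro Q₁ Q₂
    exact Sylow.ext (le_antisymm (hle Q₁ Q₂) (hle Q₂ Q₁))
  have hPn : ∀ x ∈ (P : Subgroup G), ∀ h : G, h * x * h⁻¹ ∈ (P : Subgroup G) := by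
    intro x hx h
    have h1 : h * x * h⁻¹ ∈ h • P := by
      rw [mem_sylow_smul_iff]
      have h2 : h⁻¹ * (h * x * h⁻¹) * h = x := by group
      rw [h2]
      exact hx
    rwa [huniq (h • P) P] at h1
  have heP : e ∈ (P : Subgroup G) := by
    obtain ⟨Q', hQ'⟩ := exists_sylow_mem_of_orderOf (p := p) ⟨l, hel⟩
    rwa [huniq Q' P] at hQ'
  have hcentral : ∀ f₁ : G, Commute e f₁ → ¬ p ∣ orderOf f₁ → ∀ π ∈ (P : Subgroup G), Commute π f₁ := by
    intro f₁ hc hf₁ π hπ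
    obtain ⟨Q', hQ'⟩ := exists_sylow_le p _ (hreg f₁ hc hf₁)
    rw [huniq Q' P] at hQ'
    have h1 := hQ' hπ
    rw [mem_centralizer_singleton_iff] at h1
    exact h1
  have hprimeτ : ∀ τ ∈ (P : Subgroup G), (∃ π ∈ (P : Subgroup G), ¬ Commute π τ) → ∀ t : ℕ, t.Prime → t ∣ nn τ → t = p := by
    rintro τ hτ ⟨π, hπ, hπτ⟩ t ht htτ
    by_contra htp
    have hpτ : p ∣ nn τ := by
      by_contra h
      obtain ⟨Q', hQ'⟩ := exists_sylow_le p _ h
      rw [huniq Q' P] at hQ'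
      have h1 := hQ' hπ
      rw [mem_centralizer_singleton_iff] at h1
      exact hπτ h1
    have hτ1 : τ ≠ 1 := by
      rintro rfl
      exact hπτ (Commute.one_right π)
    obtain ⟨l₁, hl₁⟩ := exists_orderOf_eq_prime_pow_of_mem P.isPGroup' hτ
    have hsτ : p ∣ orderOf τ := p_dvd_orderOf_of_ne_one hl₁ hτ1
    have hnB : ¬ B t := fun hBt => S τ hsτ p t hp.out ht hpτ htτ hAp hBt
    have hte : ¬ t ∣ nn e := fun h => hnB (hBe t ht h)
    haveI : Fact t.Prime := ⟨ht⟩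
    obtain ⟨T₁, hT₁⟩ := exists_sylow_le t _ hte
    refine not_dvd_of_sylow_le t τ T₁ (fun y hy => ?_) htτ
    obtain ⟨m₁, hm₁⟩ := exists_orderOf_eq_prime_pow_of_mem T₁.isPGroup' hy
    have hyp : ¬ p ∣ orderOf y := by
      rw [hm₁]
      intro h
      exact htp ((Nat.prime_dvd_prime_iff_eq hp.out ht).1 (hp.out.dvd_of_dvd_pow h)).symm
    have hey : Commute e y := by
      have h1 := hT₁ hy
      rw [mem_centralizer_singleton_iff] at h1
      exact (show Commute y e from h1).symm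
    exact (hcentral y hey hyp τ hτ).symm
  -- an `s`-element moving `e`
  haveI : Fact s.Prime := ⟨hsp⟩
  obtain ⟨T₂⟩ : Nonempty (Sylow s G) := inferInstance
  have hmoved3 : ∃ y ∈ (T₂ : Subgroup G), ¬ Commute y e := by
    by_contra hcon
    push Not at hcon
    exact not_dvd_of_sylow_le s e T₂ hcon hse
  obtain ⟨y, hyT, hye⟩ := hmoved3
  obtain ⟨m₂, hym⟩ := exists_orderOf_eq_prime_pow_of_mem T₂.isPGroup' hyT
  have hsp_ne : s ≠ p := fun h => hpe (h ▸ hse)
  have hcp : Nat.Coprime (orderOf y) p := by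
    rw [hym]
    exact Nat.Coprime.pow_left _ ((Nat.coprime_primes hsp hp.out).2 hsp_ne)
  obtain ⟨hcΦ, -⟩ := Cfsg.Agent.Lib.Core.frattini_pgroup p (P.isPGroup' : IsPGroup p (P : Subgroup G))
  let Φ : Subgroup G := (frattini (P : Subgroup G)).map (P : Subgroup G).subtype
  have hΦP : Φ ≤ (P : Subgroup G) := Subgroup.map_subtype_le _
  have hD₁ : ∀ τ ∈ (P : Subgroup G), (∃ π ∈ (P : Subgroup G), ¬ Commute π τ) → τ⁻¹ * (y * τ * y⁻¹) ∈ Φ := by
    intro τ hτ hex
    have hco : (P : Subgroup G).index.Coprime (nn τ) := Nat.coprime_of_dvd fun t ht h1 h2 => by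
      have h3 := hprimeτ τ hτ hex t ht h2
      subst h3
      exact P.not_dvd_index h1
    obtain ⟨π, hπ, u, hu, hy⟩ := Cfsg.Agent.Lib.Core.exists_mul_of_coprime_index _ _ hco y
    rw [mem_centralizer_singleton_iff] at hu
    have h1 : y * τ * y⁻¹ = π * τ * π⁻¹ := by
      rw [hy]
      calc π * u * τ * (π * u)⁻¹ = π * (u * τ) * u⁻¹ * π⁻¹ := by group
        _ = π * (τ * u) * u⁻¹ * π⁻¹ := by rw [hu]
        _ = π * τ * π⁻¹ := by group
    rw [h1]
    refine Subgroup.mem_map.2 ⟨⁅(⟨τ, hτ⟩ : (P : Subgroup G))⁻¹, (⟨π, hπ⟩ : (P : Subgroup G))⁆,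
      hcΦ (Subgroup.commutator_mem_commutator (Subgroup.mem_top _) (Subgroup.mem_top _)), ?_⟩
    simp only [commutatorElement_def, Subgroup.subtype_apply, Subgroup.coe_mul, Subgroup.coe_inv]
    group
  have hD : ∀ τ ∈ (P : Subgroup G), τ⁻¹ * (y * τ * y⁻¹) ∈ Φ := by
    intro τ hτ
    by_cases hex : ∃ π ∈ (P : Subgroup G), ¬ Commute π τ
    · exact hD₁ τ hτ hex
    push Not at hex
    have hc₁P : c₁ ∈ (P : Subgroup G) := hg
    have h1 : ¬ Commute τ₀ (c₁ * τ) := fun h2 => hτ₀c (by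
      have h3 := h2.mul_right (hex τ₀ hτ₀P).inv_right
      simpa using h3)
    have h2 := hD₁ (c₁ * τ) (mul_mem hc₁P hτ) ⟨τ₀, hτ₀P, h1⟩
    have h3 := hD₁ c₁ hc₁P ⟨τ₀, hτ₀P, hτ₀c⟩
    have h4 : c₁⁻¹ * (y * c₁ * y⁻¹) ∈ (P : Subgroup G) := hΦP h3
    have h5 := (hex _ h4).eq
    have h6 : τ⁻¹ * (y * τ * y⁻¹) = (c₁⁻¹ * (y * c₁ * y⁻¹))⁻¹ * ((c₁ * τ)⁻¹ * (y * (c₁ * τ) * y⁻¹)) := by
      have h7 : (c₁ * τ)⁻¹ * (y * (c₁ * τ) * y⁻¹) = τ⁻¹ * ((c₁⁻¹ * (y * c₁ * y⁻¹)) * (y * τ * y⁻¹)) := by group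
      have h8 : τ⁻¹ * (c₁⁻¹ * (y * c₁ * y⁻¹)) = (c₁⁻¹ * (y * c₁ * y⁻¹)) * τ⁻¹ := by
        have h9 : τ * (c₁⁻¹ * (y * c₁ * y⁻¹)) = (c₁⁻¹ * (y * c₁ * y⁻¹)) * τ := h5.symm
        calc τ⁻¹ * (c₁⁻¹ * (y * c₁ * y⁻¹)) = τ⁻¹ * ((c₁⁻¹ * (y * c₁ * y⁻¹)) * τ) * τ⁻¹ := by group
          _ = τ⁻¹ * (τ * (c₁⁻¹ * (y * c₁ * y⁻¹))) * τ⁻¹ := by rw [h9]
          _ = (c₁⁻¹ * (y * c₁ * y⁻¹)) * τ⁻¹ := by group
      have h10 : τ⁻¹ * ((c₁⁻¹ * (y * c₁ * y⁻¹)) * (y * τ * y⁻¹)) = (τ⁻¹ * (c₁⁻¹ * (y * c₁ * y⁻¹))) * (y * τ * y⁻¹) := by group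
      rw [h7, h10, h8]
      group
    rw [h6]
    exact mul_mem (inv_mem h3) h2
  have hfinal := Cfsg.Agent.Lib.FF.centralizes_of_frattini_trivial (P : Subgroup G) P.isPGroup'
    (fun u hu => hPn u hu y) hcp hD e heP
  apply hye
  show y * e = e * y
  calc y * e = (y * e * y⁻¹) * y := by group
    _ = e * y := by rw [hfinal]

end Cfsg.Agent.Lib.PSingGraph
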